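import Mathlib

set_option autoImplicit false

/-! Basic facts on `SL_n`: transport along ring isomorphisms, cardinality, generation. -/

namespace Cfsg.Agent.Stein

open Matrix Subgroup
open scoped MatrixGroups

/-- a ring isomorphism induces an isomorphism of special linear groups -/
def slEquiv {ι R S : Type*} [Fintype ι] [DecidableEq ι] [CommRing R] [CommRing S] (e : R ≃+* S) :
    SpecialLinearGroup ι R ≃* SpecialLinearGroup ι S where
  toFun := SpecialLinearGroup.map (e : R →+* S)
  invFun := SpecialLinearGroup.map (e.symm : S →+* R)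
  left_inv g := by ext i j; exact e.symm_apply_apply _
  right_inv g := by ext i j; exact e.apply_symm_apply _
  map_mul' := map_mul _

theorem card_sl_mul (n : ℕ) (F : Type*) [Field F] [Fintype F] [NeZero n] :
    Nat.card (SpecialLinearGroup (Fin n) F) * (Fintype.card F - 1) =
      ∏ i : Fin n, (Fintype.card F ^ n - Fintype.card F ^ (i : ℕ)) := by
  have h1 := Subgroup.card_mul_index (Matrix.GeneralLinearGroup.det : GL (Fin n) F →* Fˣ).ker
  rw [Subgroup.index_ker, MonoidHom.range_eq_top.2 Matrix.GeneralLinearGroup.det_surjective,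
    Subgroup.card_top, Nat.card_units, Matrix.card_GL_field, Nat.card_eq_fintype_card (α := F)] at h1
  have h2 : Nat.card (SpecialLinearGroup (Fin n) F) =
      Nat.card (Matrix.GeneralLinearGroup.det : GL (Fin n) F →* Fˣ).ker := by
    refine Nat.card_eq_of_bijective (fun g => ⟨Matrix.SpecialLinearGroup.toGL g, by simp⟩) ⟨?_, ?_⟩
    · intro g h e
      exact Matrix.SpecialLinearGroup.toGL_injective (congrArg Subtype.val e)
    · rintro ⟨g, hg⟩
      exact ⟨⟨g.1, (congrArg Units.val (MonoidHom.mem_ker.1 hg))⟩, Subtype.ext (Units.ext rfl)⟩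
  rw [h2, h1]

end Cfsg.Agent.Stein
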